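import Cfsg.Agent.H494.TC.Base
import Cfsg.Agent.H210.TC.Row
import Cfsg.Agent.H51.XX.Base

/-!
# S2452: the row predicate `T52` (helper588)

`T52 G` : `x` of prime order, `y` of prime order or of order a product of two distinct primes, every `g ≠ 1` is a
product of a conjugate of `x` and a conjugate of `y`, and every `g` is a product of three conjugates of `x`.
-/

set_option autoImplicit false

namespace Cfsg.Agent.H588.TW

/-- the conclusion of S2452 -/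
def T52 (G : Type*) [Group G] : Prop :=
  ∃ x y : G, (orderOf x).Prime ∧
    ((orderOf y).Prime ∨ ∃ s₁ s₂ : ℕ, s₁.Prime ∧ s₂.Prime ∧ s₁ ≠ s₂ ∧ orderOf y = s₁ * s₂) ∧
    (∀ g : G, g ≠ 1 → ∃ u v : G, g = (u * x * u⁻¹) * (v * y * v⁻¹)) ∧
    (∀ g : G, ∃ u v w : G, g = (u * x * u⁻¹) * (v * x * v⁻¹) * (w * x * w⁻¹))

variable {G H : Type*} [Group G] [Group H]

theorem T52.of_equiv (e : G ≃* H) (h : T52 H) : T52 G := by
  obtain ⟨x, y, hx, hy, h2, h3⟩ := h
  refine ⟨e.symm x, e.symm y, by rwa [MulEquiv.orderOf_eq], by rwa [MulEquiv.orderOf_eq], fun g hg => ?_, fun g => ?_⟩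
  · obtain ⟨u, v, e'⟩ := h2 (e g) (by
      intro h1
      exact hg (e.injective (by rw [h1, map_one])))
    refine ⟨e.symm u, e.symm v, e.injective ?_⟩
    rw [e']
    simp
  · obtain ⟨u, v, w, e'⟩ := h3 (e g)
    refine ⟨e.symm u, e.symm v, e.symm w, e.injective ?_⟩
    rw [e']
    simp

theorem T52.congr (e : G ≃* H) (h : T52 G) : T52 H := h.of_equiv e.symm

theorem T52.of_row3 (h : Cfsg.Agent.H210.TC.Row3 G) : T52 G := h.s2452

theorem exists_comm_ne (hG : ¬ IsMulCommutative G) : ∃ a b : G, a * b ≠ b * a := by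
  by_contra h
  push Not at h
  exact hG ⟨⟨h⟩⟩

/-- one class, order prime to 6 -/
theorem T52.of_pp (hG : ¬ IsMulCommutative G) (h : Cfsg.Agent.H494.TC.PP G) : T52 G := h.three (exists_comm_ne hG)

/-- one class whose square contains everything except possibly the identity, any prime order -/
theorem T52.of_sq {x : G} (hx : (orderOf x).Prime) (hn : ∃ w : G, w * x * w⁻¹ ≠ x)
    (h : ∀ g : G, g ≠ 1 → ∃ u v : G, g = (u * x * u⁻¹) * (v * x * v⁻¹)) : T52 G :=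
  ⟨x, x, hx, Or.inl hx, h, Cfsg.Agent.H494.TC.three_of h hn⟩

theorem T52.of_xx (hG : ¬ IsMulCommutative G) (h : Cfsg.Agent.H51.XX.RowXX G) : T52 G := by
  obtain ⟨x, hx, h6, h⟩ := h
  exact T52.of_pp hG ⟨x, hx, h6, h⟩

/-- two classes; the cube clause from `y ∈ x^G x^G` and `1 ∈ x^G x^G x^G` -/
theorem T52.of_pair {x y : G} (hx : (orderOf x).Prime)
    (hy : (orderOf y).Prime ∨ ∃ s₁ s₂ : ℕ, s₁.Prime ∧ s₂.Prime ∧ s₁ ≠ s₂ ∧ orderOf y = s₁ * s₂)
    (h2 : ∀ g : G, g ≠ 1 → ∃ u v : G, g = (u * x * u⁻¹) * (v * y * v⁻¹))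
    (hyx : ∃ u v : G, y = (u * x * u⁻¹) * (v * x * v⁻¹))
    (h1 : ∃ u v w : G, (1 : G) = (u * x * u⁻¹) * (v * x * v⁻¹) * (w * x * w⁻¹)) : T52 G := by
  refine ⟨x, y, hx, hy, h2, fun g => ?_⟩
  by_cases hg : g = 1
  · rw [hg]
    exact h1
  · obtain ⟨u, v, e⟩ := h2 g hg
    obtain ⟨a, b, e'⟩ := hyx
    refine ⟨u, v * a, v * b, ?_⟩
    rw [e, e']
    group

end Cfsg.Agent.H588.TW
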